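import Cfsg.Agent.Lib.Helper77.Dict2
import Cfsg.Agent.S4604

/-!
# R7 of S4648 (helper78): class functions mod `M` on `p`-regular elements are spanned by the
reductions of the irreducible characters
-/

set_option autoImplicit false

namespace Cfsg.Agent.Lib.Helper78.SymAlgR7

open Cfsg Cfsg.Agent.Lib.Helper77 Cfsg.Agent.Lib.Helper78
open scoped ComplexConjugate
open Cfsg.Agent.Lib.Helper76 Cfsg.Agent.Lib.Helper3 Cfsg.Agent.Lib.Helper32

open Classical in
theorem exists_coeff {G : Type*} [Group G] [Fintype G] (p : ℕ) [Fact p.Prime] (a : G)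
    (ha : ¬ p ∣ orderOf a) :
    ∃ (c : IrrCharacter G → ℂ) (m : ℕ), (∀ χ, IsIntegral ℤ (c χ)) ∧ ¬ p ∣ m ∧
      ∀ g : G, ¬ p ∣ orderOf g →
        ∑ χ : IrrCharacter G, c χ * (χ : G → ℂ) g = if IsConj g a then (m : ℂ) else 0 := by
  classical
  let S : Sylow p (Subgroup.centralizer ({a} : Set G)) := default
  set P : Subgroup G := (S : Subgroup (Subgroup.centralizer ({a} : Set G))).map (Subgroup.centralizer ({a} : Set G)).subtype with hP
  have hPp : IsPGroup p P := S.2.map _
  have hPa : ∀ u ∈ P, u * a = a * u := by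
    rintro _ ⟨u, -, rfl⟩
    exact Subgroup.mem_centralizer_singleton_iff.mp u.2
  have hPcard : Nat.card P * (S : Subgroup (Subgroup.centralizer ({a} : Set G))).index = Nat.card (Subgroup.centralizer ({a} : Set G)) := by
    rw [hP, Nat.card_congr ((S : Subgroup (Subgroup.centralizer ({a} : Set G))).equivMapOfInjective _
      (Subgroup.subtype_injective _)).toEquiv.symm]
    exact Subgroup.card_mul_index _
  have hPne : (Nat.card P : ℂ) ≠ 0 := by exact_mod_cast Nat.card_pos.ne'
  set c : IrrCharacter G → ℂ := fun χ =>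
    (Nat.card P : ℂ)⁻¹ * ∑ u : G, if u ∈ P then conj ((χ : G → ℂ) (a * u)) else 0 with hc
  have hcint : ∀ χ, IsIntegral ℤ (c χ) := fun χ =>
    isIntegral_avg_char (IsCharacter.conj (IsIrrCharacter.isCharacter χ.2)) P a hPa
  refine ⟨c, (S : Subgroup (Subgroup.centralizer ({a} : Set G))).index, hcint, S.not_dvd_index, ?_⟩
  intro g hg
  have h1 : ∀ χ : IrrCharacter G, c χ * (χ : G → ℂ) g = (Nat.card P : ℂ)⁻¹ *
      ∑ u : G, if u ∈ P then (χ : G → ℂ) g * conj ((χ : G → ℂ) (a * u)) else 0 := by
    intro χ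
    rw [hc]
    simp only
    rw [mul_assoc, Finset.sum_mul]
    congr 1
    apply Finset.sum_congr rfl
    intro u _
    split_ifs
    · ring
    · ring
  rw [Finset.sum_congr rfl (fun χ _ => h1 χ), ← Finset.mul_sum, Finset.sum_comm]
  have h2 : ∀ u : G, ∑ χ : IrrCharacter G,
      (if u ∈ P then (χ : G → ℂ) g * conj ((χ : G → ℂ) (a * u)) else 0) =
      if u = 1 then (if IsConj g a then (Nat.card (Subgroup.centralizer ({g} : Set G)) : ℂ) else 0)
        else 0 := by
    intro u
    by_cases hu : u ∈ P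
    · simp only [if_pos hu]
      rw [column_orthogonality]
      by_cases hu1 : u = 1
      · rw [if_pos hu1, hu1, mul_one]
      · rw [if_neg hu1, if_neg]
        intro hconj
        apply hg
        have h3 : orderOf g = orderOf (a * u) := by
          obtain ⟨t, ht⟩ := isConj_iff.mp hconj
          rw [← ht]
          exact (orderOf_injective (MulAut.conj t).toMonoidHom (MulAut.conj t).injective g).symm
        rw [h3]
        exact dvd_orderOf_mul_of_regular Fact.out ha (exists_orderOf_eq_of_mem hPp hu) hu1 (hPa u hu)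
    · simp only [if_neg hu, Finset.sum_const_zero]
      rw [if_neg]
      rintro rfl
      exact hu (Subgroup.one_mem _)
  rw [Finset.sum_congr rfl (fun u _ => h2 u), Finset.sum_ite_eq' Finset.univ (1 : G)]
  simp only [Finset.mem_univ, if_true]
  split_ifs with hconj
  · have h4 : Nat.card (Subgroup.centralizer ({g} : Set G)) =
        Nat.card (Subgroup.centralizer ({a} : Set G)) := by
      obtain ⟨t, ht⟩ := isConj_iff.mp hconj
      subst ht
      apply Nat.card_congr
      refine ⟨fun x => ⟨t * x * t⁻¹, ?_⟩, fun x => ⟨t⁻¹ * x * t, ?_⟩, ?_, ?_⟩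
      · have := Subgroup.mem_centralizer_singleton_iff.mp x.2
        rw [Subgroup.mem_centralizer_singleton_iff]
        calc t * ↑x * t⁻¹ * (t * g * t⁻¹) = t * (↑x * g) * t⁻¹ := by group
          _ = t * (g * ↑x) * t⁻¹ := by rw [this]
          _ = _ := by group
      · have := Subgroup.mem_centralizer_singleton_iff.mp x.2
        rw [Subgroup.mem_centralizer_singleton_iff]
        calc t⁻¹ * ↑x * t * g = t⁻¹ * (↑x * (t * g * t⁻¹)) * t := by group
          _ = t⁻¹ * ((t * g * t⁻¹) * ↑x) * t := by rw [this]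
          _ = _ := by group
      · intro x
        apply Subtype.ext
        simp only
        group
      · intro x
        apply Subtype.ext
        simp only
        group
    rw [h4, ← hPcard]
    push_cast
    field_simp
  · rw [mul_zero]

theorem R7 {G : Type*} [Group G] [Fintype G] {p : ℕ} [Fact p.Prime] (M : Ideal AlgInt)
    [hP : M.IsPrime] (hM : IsPModular p M) (h : G → ResF M)
    (hcl : ∀ g x, h (x * g * x⁻¹) = h g) :
    ∃ C : IrrCharacter G → ResF M, ∀ g, IsPRegular p g →
      h g = ∑ χ : IrrCharacter G, C χ * red M ((χ : G → ℂ) g) := by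
  classical
  have hex : ∀ a : G, ∃ (c : IrrCharacter G → ℂ) (m : ℕ), ¬ p ∣ orderOf a →
      ((∀ χ, IsIntegral ℤ (c χ)) ∧ ¬ p ∣ m ∧
      ∀ g : G, ¬ p ∣ orderOf g →
        ∑ χ : IrrCharacter G, c χ * (χ : G → ℂ) g = if IsConj g a then (m : ℂ) else 0) := by
    intro a
    by_cases ha : p ∣ orderOf a
    · exact ⟨0, 0, fun h => absurd ha h⟩
    · obtain ⟨c, m, hcm⟩ := exists_coeff p a ha
      exact ⟨c, m, fun _ => hcm⟩
  choose c m hcm using hex
  have hchar := resF_charP hM
  refine ⟨fun χ => ∑ K : ConjClasses G, if ¬ p ∣ orderOf K.out then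
    h K.out * ((m K.out : ℕ) : ResF M)⁻¹ * red M (c K.out χ) else 0, ?_⟩
  intro g hg
  have hχint : ∀ χ : IrrCharacter G, MemLocalRing M ((χ : G → ℂ) g) := fun χ =>
    memLocalRing_of_isIntegral hP (IsCharacter.isIntegral (IsIrrCharacter.isCharacter χ.2) g)
  simp only [Finset.sum_mul]
  rw [Finset.sum_comm]
  have hout : IsConj g (ConjClasses.mk g).out := by
    rw [← ConjClasses.mk_eq_mk_iff_isConj]
    exact (Quotient.out_eq _).symm
  rw [Finset.sum_eq_single (ConjClasses.mk g)]
  · obtain ⟨t, ht⟩ := isConj_iff.mp hout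
    have hord : orderOf (ConjClasses.mk g).out = orderOf g := by
      rw [← ht]
      exact orderOf_injective (MulAut.conj t).toMonoidHom (MulAut.conj t).injective g
    have hreg : ¬ p ∣ orderOf (ConjClasses.mk g).out := by rw [hord]; exact hg
    obtain ⟨h1, h2, h3⟩ := hcm _ hreg
    simp only [if_pos hreg]
    have h4 : ∀ χ : IrrCharacter G, h (ConjClasses.mk g).out *
        ((m (ConjClasses.mk g).out : ℕ) : ResF M)⁻¹ * red M (c (ConjClasses.mk g).out χ) *
        red M ((χ : G → ℂ) g) = h (ConjClasses.mk g).out *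
        ((m (ConjClasses.mk g).out : ℕ) : ResF M)⁻¹ *
        red M (c (ConjClasses.mk g).out χ * (χ : G → ℂ) g) := by
      intro χ
      rw [red_mul (memLocalRing_of_isIntegral hP (h1 χ)) (hχint χ), mul_assoc]
    rw [Finset.sum_congr rfl (fun χ _ => h4 χ), ← Finset.mul_sum, ← red_sum, h3 g hg,
      if_pos hout, red_natCast]
    · have hm0 : ((m (ConjClasses.mk g).out : ℕ) : ResF M) ≠ 0 := by
        intro h0
        exact h2 ((CharP.cast_eq_zero_iff (ResF M) p _).1 h0)
      rw [mul_assoc, inv_mul_cancel₀ hm0, mul_one, ← ht, hcl]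
    · intro χ _
      exact MemLocalRing.mul hP (memLocalRing_of_isIntegral hP (h1 χ)) (hχint χ)
  · intro K _ hK
    by_cases hreg : ¬ p ∣ orderOf K.out
    · obtain ⟨h1, h2, h3⟩ := hcm _ hreg
      simp only [if_pos hreg]
      have h4 : ∀ χ : IrrCharacter G, h K.out *
          ((m K.out : ℕ) : ResF M)⁻¹ * red M (c K.out χ) *
          red M ((χ : G → ℂ) g) = h K.out *
          ((m K.out : ℕ) : ResF M)⁻¹ *
          red M (c K.out χ * (χ : G → ℂ) g) := by
        intro χ
        rw [red_mul (memLocalRing_of_isIntegral hP (h1 χ)) (hχint χ), mul_assoc]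
      rw [Finset.sum_congr rfl (fun χ _ => h4 χ), ← Finset.mul_sum, ← red_sum, h3 g hg, if_neg,
        red_zero, mul_zero]
      · intro hc
        apply hK
        rw [← Quotient.out_eq K]
        exact (ConjClasses.mk_eq_mk_iff_isConj.2 hc).symm
      · intro χ _
        exact MemLocalRing.mul hP (memLocalRing_of_isIntegral hP (h1 χ)) (hχint χ)
    · simp only [if_neg hreg, zero_mul, Finset.sum_const_zero]
  · intro h0
    exact absurd (Finset.mem_univ _) h0

end Cfsg.Agent.Lib.Helper78.SymAlgR7
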