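import Mathlib
import Cfsg.Agent.Lib.Helper78.DefectCard
import Cfsg.Agent.Lib.Helper78.HeightZero
import Cfsg.Agent.S4665
import Cfsg.Agent.S4666
import Cfsg.Agent.S4667

/-!
# Blocks of `p`-regular rank one
-/

set_option autoImplicit false

namespace Cfsg.Agent.Lib.Helper78

open Cfsg
open scoped ComplexConjugate

noncomputable section

variable {G : Type*} [Group G] [Fintype G]
variable {M : Ideal AlgInt} {p : ℕ}

omit [Fintype G] in
theorem pRegularPart_of_reg (χ : G → ℂ) {x : G} (hx : IsPRegular p x) :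
    pRegularPart p χ x = χ x := by
  unfold pRegularPart; rw [if_pos hx]

omit [Fintype G] in
theorem pRegularPart_of_sing (χ : G → ℂ) {x : G} (hx : ¬ IsPRegular p x) :
    pRegularPart p χ x = 0 := by
  unfold pRegularPart; rw [if_neg hx]

omit [Fintype G] in
theorem isPRegular_one' (hp : p.Prime) : IsPRegular p (1 : G) := by
  unfold IsPRegular; rw [orderOf_one]; exact hp.one_lt.ne' ∘ Nat.dvd_one.1

omit [Fintype G] in
theorem isPRegular_inv' {x : G} (hx : IsPRegular p x) : IsPRegular p x⁻¹ := by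
  unfold IsPRegular at *; rwa [orderOf_inv]

/-- proportionality on `p`-regular elements in a block of rank one, with integrality. -/
theorem rankOne_structure (hp : p.Prime) {B : Set (IrrCharacter G)} (hne : B.Nonempty)
    (hl : blockRank p B = 1) :
    ∃ (n : IrrCharacter G → ℤ) (d : IrrCharacter G → ℕ) (g : ℕ), 0 < g ∧
      (∀ χ ∈ B, charDegree (χ : G → ℂ) = d χ * g) ∧
      (∑ᶠ ψ ∈ B, n ψ * (d ψ : ℤ) = 1) ∧
      (∀ χ ∈ B, ∀ x : G, IsPRegular p x →
        (χ : G → ℂ) x = (d χ : ℂ) * ∑ᶠ ψ ∈ B, (n ψ : ℂ) * (ψ : G → ℂ) x) := by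
  classical
  obtain ⟨ψ0, hψ0⟩ := hne
  unfold blockRank at hl
  obtain ⟨⟨θ, hθm⟩, -, hθ⟩ := finrank_eq_one_iff'.1 hl
  have h1 : ∀ χ ∈ B, ∃ c : ℂ, ∀ x, IsPRegular p x → (χ : G → ℂ) x = c * θ x := by
    intro χ hχ
    obtain ⟨c, hc⟩ := hθ ⟨pRegularPart p (χ : G → ℂ), Submodule.subset_span ⟨χ, hχ, rfl⟩⟩
    refine ⟨c, fun x hx => ?_⟩
    have := congrFun (congrArg Subtype.val hc) x
    simp only [Submodule.coe_smul, Pi.smul_apply, smul_eq_mul] at this
    rw [this, pRegularPart_of_reg _ hx]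
  have hθ1 : θ 1 ≠ 0 := by
    intro h0
    obtain ⟨c, hc⟩ := h1 ψ0 hψ0
    have := hc 1 (isPRegular_one' hp)
    rw [h0, mul_zero, irr_one_eq] at this
    exact (irr_charDegree_pos ψ0).ne' (by exact_mod_cast this)
  have h2 : ∀ χ ∈ B, ∀ x, IsPRegular p x →
      (χ : G → ℂ) x = ((charDegree (χ : G → ℂ) : ℕ) : ℂ) / θ 1 * θ x := by
    intro χ hχ x hx
    obtain ⟨c, hc⟩ := h1 χ hχ
    have := hc 1 (isPRegular_one' hp)
    rw [irr_one_eq] at this
    rw [hc x hx, this]; field_simp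
  -- the gcd of the degrees
  set v : IrrCharacter G → ℤ := fun χ => if χ ∈ B then ((charDegree (χ : G → ℂ) : ℕ) : ℤ) else 0
    with hv
  obtain ⟨g0, hg0⟩ := IsPrincipalIdealRing.principal (Ideal.span (Set.range v))
  have hg1 : Ideal.span (Set.range v) = Ideal.span {((g0.natAbs : ℕ) : ℤ)} := by
    rw [Int.span_natAbs]; exact hg0
  have hdvd : ∀ χ ∈ B, g0.natAbs ∣ charDegree (χ : G → ℂ) := by
    intro χ hχ
    have : v χ ∈ Ideal.span (Set.range v) := Ideal.subset_span ⟨χ, rfl⟩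
    rw [hg1, Ideal.mem_span_singleton, hv] at this
    simp only [if_pos hχ] at this
    exact_mod_cast this
  have hgpos : 0 < g0.natAbs := by
    rcases Nat.eq_zero_or_pos g0.natAbs with h | h
    · have := hdvd ψ0 hψ0
      rw [h, zero_dvd_iff] at this
      exact absurd this (irr_charDegree_pos ψ0).ne'
    · exact h
  have hmem : ((g0.natAbs : ℕ) : ℤ) ∈ Ideal.span (Set.range v) := by
    rw [hg1]; exact Ideal.mem_span_singleton_self _
  obtain ⟨n, hn⟩ := (Ideal.mem_span_range_iff_exists_fun).1 hmem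
  set g := g0.natAbs with hg
  have hd : ∀ χ ∈ B, charDegree (χ : G → ℂ) = (charDegree (χ : G → ℂ) / g) * g := fun χ hχ =>
    (Nat.div_mul_cancel (hdvd χ hχ)).symm
  have hsum : ∑ᶠ ψ ∈ B, n ψ * (((charDegree (ψ : G → ℂ) / g : ℕ)) : ℤ) = 1 := by
    rw [finsum_mem_irr]
    have : (∑ ψ : IrrCharacter G, if ψ ∈ B then n ψ * (((charDegree (ψ : G → ℂ) / g : ℕ)) : ℤ)
        else 0) * (g : ℤ) = 1 * (g : ℤ) := by
      rw [one_mul, Finset.sum_mul]
      refine Eq.trans ?_ hn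
      refine Finset.sum_congr rfl fun ψ _ => ?_
      by_cases hψ : ψ ∈ B
      · simp only [hv, if_pos hψ]
        conv_rhs => rw [hd ψ hψ]
        push_cast; ring
      · simp only [hv, if_neg hψ]; ring
    exact mul_right_cancel₀ (by exact_mod_cast hgpos.ne') this
  refine ⟨n, fun χ => charDegree (χ : G → ℂ) / g, g, hgpos, hd, hsum, ?_⟩
  intro χ hχ x hx
  have h3 : ∑ᶠ ψ ∈ B, (n ψ : ℂ) * (ψ : G → ℂ) x = (g : ℂ) / θ 1 * θ x := by
    rw [finsum_mem_irr]
    have h4 : ((g : ℕ) : ℂ) = ∑ ψ : IrrCharacter G, (n ψ : ℂ) * ((v ψ : ℤ) : ℂ) := by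
      have := congrArg (fun z : ℤ => (z : ℂ)) hn
      simp only [Int.cast_sum, Int.cast_mul, Int.cast_natCast] at this
      exact this.symm
    rw [h4, Finset.sum_div, Finset.sum_mul]
    refine Finset.sum_congr rfl fun ψ _ => ?_
    by_cases hψ : ψ ∈ B
    · simp only [hv, if_pos hψ]
      rw [h2 ψ hψ x hx]; push_cast; ring
    · simp only [hv, if_neg hψ]; simp
  rw [h3, h2 χ hχ x hx]
  conv_lhs => rw [hd χ hχ]
  push_cast; ring

/-- the Cartan invariant of a block of rank one is `p ^ d(B)`. -/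
theorem rankOne_cartan [Fact p.Prime] (hM : IsPModular p M) {B : Set (IrrCharacter G)}
    (hB : IsPBlock M B) (n : IrrCharacter G → ℤ) (d : IrrCharacter G → ℕ) (g : ℕ) (hg : 0 < g)
    (hd : ∀ χ ∈ B, charDegree (χ : G → ℂ) = d χ * g)
    (hnd : ∑ᶠ ψ ∈ B, n ψ * (d ψ : ℤ) = 1)
    (hχ : ∀ χ ∈ B, ∀ x : G, IsPRegular p x →
        (χ : G → ℂ) x = (d χ : ℂ) * ∑ᶠ ψ ∈ B, (n ψ : ℂ) * (ψ : G → ℂ) x)
    (hl : blockRank p B = 1) :
    ∑ᶠ χ ∈ B, d χ ^ 2 = p ^ blockDefect p B := by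
  classical
  have hp : p.Prime := hM.1
  have hMp := pmod_isPrime hM
  set φ : G → ℂ := fun x => ∑ᶠ ψ ∈ B, (n ψ : ℂ) * (ψ : G → ℂ) x with hφ
  set c : ℕ := ∑ᶠ χ ∈ B, d χ ^ 2 with hc
  set S : ℂ := ∑ x : G, pRegularPart p φ x * φ x⁻¹ with hS
  have hcC : (c : ℂ) = ∑ χ : IrrCharacter G, if χ ∈ B then (d χ : ℂ) ^ 2 else 0 := by
    rw [hc, finsum_mem_irr]; push_cast
    refine Finset.sum_congr rfl fun χ _ => ?_
    split_ifs <;> simp
  have hG0 : (Nat.card G : ℂ) ≠ 0 := by exact_mod_cast Nat.card_pos.ne'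
  -- `|G| = c S`
  have h1 : (Nat.card G : ℂ) = c * S := by
    have := Cfsg.Agent.S4667.result p M hM B hB
    rw [hl, Nat.cast_one, mul_one] at this
    rw [this, hcC, hS, Finset.sum_mul_sum, Finset.sum_comm]
    refine Finset.sum_congr rfl fun x _ => ?_
    rw [finsum_mem_irr]
    refine Finset.sum_congr rfl fun χ _ => ?_
    by_cases hχB : χ ∈ B
    · rw [if_pos hχB, if_pos hχB]
      by_cases hx : IsPRegular p x
      · rw [pRegularPart_of_reg _ hx, pRegularPart_of_reg _ hx, hχ χ hχB x hx,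
          hχ χ hχB x⁻¹ (isPRegular_inv' hx)]
        ring
      · rw [pRegularPart_of_sing _ hx, pRegularPart_of_sing _ hx]; ring
    · rw [if_neg hχB, if_neg hχB]; ring
  have hc0 : (c : ℂ) ≠ 0 := by
    intro h0; rw [h0, zero_mul] at h1; exact hG0 h1
  obtain ⟨m, hm⟩ := Cfsg.Agent.S4666.result p M hM B hB φ ⟨n, fun g => rfl⟩
  -- coefficients of `p^D φ°`
  have h2 : ∀ ψ ∈ B, (m ψ : ℂ) * c = (p : ℂ) ^ blockDefect p B * d ψ := by
    intro ψ hψ
    have h3 : classInner (∑ ψ' : IrrCharacter G, (if ψ' ∈ B then (m ψ' : ℂ) else 0) •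
        (ψ' : G → ℂ)) ψ = m ψ := by
      rw [Cfsg.Agent.Lib.Helper3.classInner_sum_irr, if_pos hψ]
    have h4 : (∑ ψ' : IrrCharacter G, (if ψ' ∈ B then (m ψ' : ℂ) else 0) • (ψ' : G → ℂ))
        = fun g => (p ^ blockDefect p B : ℂ) * pRegularPart p φ g := by
      funext g
      rw [hm g, finsum_mem_irr, Finset.sum_apply]
      refine Finset.sum_congr rfl fun ψ' _ => ?_
      by_cases h : ψ' ∈ B
      · simp [h]
      · simp [h]
    rw [h4] at h3
    unfold classInner at h3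
    have h5 : ∑ g : G, (p ^ blockDefect p B : ℂ) * pRegularPart p φ g * conj ((ψ : G → ℂ) g)
        = (p ^ blockDefect p B : ℂ) * d ψ * S := by
      rw [hS, Finset.mul_sum]
      refine Finset.sum_congr rfl fun x _ => ?_
      by_cases hx : IsPRegular p x
      · rw [← irr_inv, hχ ψ hψ x⁻¹ (isPRegular_inv' hx)]; ring
      · rw [pRegularPart_of_sing _ hx]; ring
    rw [h5] at h3
    rw [← h3, h1]
    have hS0 : S ≠ 0 := by
      intro h0; rw [h0, mul_zero] at h1; exact hG0 h1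
    field_simp
  have h2' : ∀ ψ ∈ B, m ψ * (c : ℤ) = (p : ℤ) ^ blockDefect p B * d ψ := by
    intro ψ hψ
    have := h2 ψ hψ
    exact_mod_cast this
  -- `c ∣ p ^ D`
  have h6 : (c : ℤ) ∣ (p : ℤ) ^ blockDefect p B := by
    refine ⟨∑ᶠ ψ ∈ B, n ψ * m ψ, ?_⟩
    rw [finsum_mem_irr] at hnd ⊢
    have : (p : ℤ) ^ blockDefect p B = (p : ℤ) ^ blockDefect p B *
        ∑ ψ : IrrCharacter G, if ψ ∈ B then n ψ * (d ψ : ℤ) else 0 := by rw [hnd, mul_one]
    rw [this, Finset.mul_sum, Finset.mul_sum]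
    refine Finset.sum_congr rfl fun ψ _ => ?_
    by_cases hψ : ψ ∈ B
    · rw [if_pos hψ, if_pos hψ]
      have := h2' ψ hψ
      linear_combination (- n ψ) * this
    · rw [if_neg hψ, if_neg hψ]; ring
  have h6' : c ∣ p ^ blockDefect p B := by exact_mod_cast h6
  obtain ⟨e, he, hce⟩ := (Nat.dvd_prime_pow hp).1 h6'
  -- the projective character
  set Φ : G → ℂ := fun x => ∑ᶠ ψ ∈ B, ((d ψ : ℤ) : ℂ) * (ψ : G → ℂ) x with hΦ
  have hpD : ((p : ℂ) ^ blockDefect p B) ≠ 0 := pow_ne_zero _ (by exact_mod_cast hp.ne_zero)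
  have h7 : ∀ x, Φ x = c * pRegularPart p φ x := by
    intro x
    have h8 : (p ^ blockDefect p B : ℂ) * Φ x = (p ^ blockDefect p B : ℂ) *
        (c * pRegularPart p φ x) := by
      have : (p ^ blockDefect p B : ℂ) * (c * pRegularPart p φ x)
          = c * ((p ^ blockDefect p B : ℂ) * pRegularPart p φ x) := by ring
      rw [this, hm x, hΦ]
      simp only
      rw [finsum_mem_irr, finsum_mem_irr, Finset.mul_sum, Finset.mul_sum]
      refine Finset.sum_congr rfl fun ψ _ => ?_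
      by_cases hψ : ψ ∈ B
      · rw [if_pos hψ, if_pos hψ]
        have := h2 ψ hψ
        push_cast
        linear_combination (- (ψ : G → ℂ) x) * this
      · rw [if_neg hψ, if_neg hψ]; ring
    exact mul_left_cancel₀ hpD h8
  have h9 : ∀ x, pRegularPart p Φ x = Φ x := by
    intro x
    by_cases hx : IsPRegular p x
    · rw [pRegularPart_of_reg _ hx]
    · rw [pRegularPart_of_sing _ hx, h7, pRegularPart_of_sing _ hx, mul_zero]
  obtain ⟨k, hk⟩ := Cfsg.Agent.S4665.result p M hM B hB Φ ⟨fun ψ => (d ψ : ℤ), fun g => rfl⟩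
    ⟨fun ψ => (d ψ : ℤ), fun g => h9 g⟩
  have hφ1 : φ 1 = g := by
    rw [hφ]; simp only
    rw [finsum_mem_irr]
    rw [finsum_mem_irr] at hnd
    have h10 : ((g : ℕ) : ℂ) = ((∑ ψ : IrrCharacter G, if ψ ∈ B then n ψ * (d ψ : ℤ) else 0 : ℤ) : ℂ)
        * g := by rw [hnd]; simp
    rw [h10]; push_cast; rw [Finset.sum_mul]
    refine Finset.sum_congr rfl fun ψ _ => ?_
    by_cases hψ : ψ ∈ B
    · rw [if_pos hψ, if_pos hψ, irr_one_eq, hd ψ hψ]; push_cast; ring
    · rw [if_neg hψ, if_neg hψ]; ring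
  have h11 : ((c * g : ℕ) : ℤ) = (p : ℤ) ^ (Nat.card G).factorization p * k := by
    have : ((c * g : ℕ) : ℂ) = (p ^ (Nat.card G).factorization p : ℂ) * k := by
      rw [← hk, h7, pRegularPart_of_reg _ (isPRegular_one' hp), hφ1]; push_cast; ring
    exact_mod_cast this
  have h12 : p ^ (Nat.card G).factorization p ∣ c * g := by
    have : ((p ^ (Nat.card G).factorization p : ℕ) : ℤ) ∣ ((c * g : ℕ) : ℤ) := by
      rw [h11]; push_cast; exact Dvd.intro _ rfl
    exact_mod_cast this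
  obtain ⟨ψ1, hψ1, hmin⟩ := exists_minDeg (p := p) (IsPBlock.nonempty hMp hB)
  have h13 : g.factorization p ≤ minDeg p B := by
    rw [← hmin]
    have hdvd : g ∣ charDegree (ψ1 : G → ℂ) := ⟨d ψ1, by rw [hd ψ1 hψ1]; ring⟩
    exact (Nat.factorization_le_iff_dvd hg.ne' (irr_charDegree_pos ψ1).ne').2 hdvd p
  have h14 : (Nat.card G).factorization p ≤ e + g.factorization p := by
    have hcg : c * g ≠ 0 := by
      rw [hce]; exact mul_ne_zero (pow_ne_zero _ hp.ne_zero) hg.ne'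
    have := (hp.pow_dvd_iff_le_factorization hcg).1 h12
    rw [hce, Nat.factorization_mul (pow_ne_zero _ hp.ne_zero) hg.ne', Finsupp.add_apply,
      hp.factorization_pow, Finsupp.single_eq_same] at this
    exact this
  have h15 : blockDefect p B ≤ e := by rw [blockDefect_eq]; omega
  rw [hce, le_antisymm he h15]

end

end Cfsg.Agent.Lib.Helper78
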