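import Mathlib
import Cfsg.Prelude.Def_Blocks
import Cfsg.Agent.Lib.Helper78.SubsecAvg

/-!
# Subsections for `p = 2`: the averaged diagonal contributions are odd integers (helper78)
-/

set_option autoImplicit false

namespace Cfsg.Agent.Lib.Helper78

open Cfsg Cfsg.Agent.Lib.Helper4 Cfsg.Agent.Lib.Helper16 Cfsg.Agent.Lib.Helper97
open scoped ComplexConjugate

theorem rootAvg_one (n : ℕ) [NeZero n] : rootAvg n 1 = 1 := by
  unfold rootAvg
  have hφ : (Fintype.card (ZMod n)ˣ : ℂ) ≠ 0 := by exact_mod_cast Fintype.card_ne_zero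
  simp only [one_pow, Finset.sum_const, Finset.card_univ, nsmul_eq_mul, mul_one]
  exact inv_mul_cancel₀ hφ

theorem rootAvg_conj (n : ℕ) [NeZero n] (w : ℂ) : rootAvg n (conj w) = conj (rootAvg n w) := by
  unfold rootAvg
  rw [map_mul, map_inv₀, Complex.conj_natCast, map_sum]
  congr 1
  refine Finset.sum_congr rfl fun j _ => ?_
  rw [map_pow]

theorem exists_pow_eq_neg_one {w : ℂ} {k : ℕ} (hw : w ^ 2 ^ k = 1) (h1 : w ≠ 1) :
    ∃ i < k, w ^ 2 ^ i = -1 := by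
  induction k with
  | zero => simp at hw; exact absurd hw h1
  | succ k ih =>
    rw [pow_succ, pow_mul, sq] at hw
    rcases mul_self_eq_one_iff.1 hw with h | h
    · obtain ⟨i, hi, hi2⟩ := ih h
      exact ⟨i, by omega, hi2⟩
    · exact ⟨k, by omega, h⟩

theorem unit_val_odd {k : ℕ} (hk : 0 < k) (j : (ZMod (2 ^ k))ˣ) : Odd (j : ZMod (2 ^ k)).val := by
  have h1 := ZMod.val_coe_unit_coprime j
  rw [← Nat.coprime_two_right]
  exact Nat.Coprime.coprime_dvd_right (dvd_pow_self 2 hk.ne') h1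

theorem rootAvg_two_pow_int {k : ℕ} {w : ℂ} (hw : w ^ 2 ^ k = 1) :
    ∃ a : ℤ, rootAvg (2 ^ k) w = (a : ℂ) := by
  have hφ : (Fintype.card (ZMod (2 ^ k))ˣ : ℂ) ≠ 0 := by exact_mod_cast Fintype.card_ne_zero
  by_cases h1 : w = 1
  · exact ⟨1, by rw [h1, rootAvg_one]; simp⟩
  obtain ⟨i, hi, hi2⟩ := exists_pow_eq_neg_one hw h1
  have hk : 0 < k := by omega
  rcases Nat.eq_zero_or_pos i with rfl | hi0
  · refine ⟨-1, ?_⟩
    rw [pow_zero, pow_one] at hi2
    unfold rootAvg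
    have : ∀ j : (ZMod (2 ^ k))ˣ, w ^ (j : ZMod (2 ^ k)).val = -1 := by
      intro j
      rw [hi2]
      exact (unit_val_odd hk j).neg_one_pow
    simp only [this, Finset.sum_const, Finset.card_univ, nsmul_eq_mul]
    push_cast
    field_simp
  · refine ⟨0, ?_⟩
    have hcop : Nat.Coprime (1 + 2 ^ i) (2 ^ k) := by
      apply Nat.Coprime.pow_right
      rw [Nat.coprime_two_right]
      exact (Even.add_one ((Nat.even_pow.2 ⟨even_two, hi0.ne'⟩))).elim fun m hm =>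
        ⟨m, by omega⟩
    have hS : ∑ j : (ZMod (2 ^ k))ˣ, w ^ (j : ZMod (2 ^ k)).val
        = - ∑ j : (ZMod (2 ^ k))ˣ, w ^ (j : ZMod (2 ^ k)).val := by
      conv_lhs => rw [← Equiv.sum_comp (Equiv.mulRight (ZMod.unitOfCoprime (1 + 2 ^ i) hcop))]
      rw [← Finset.sum_neg_distrib]
      refine Finset.sum_congr rfl fun j _ => ?_
      simp only [Equiv.coe_mulRight, Units.val_mul, ZMod.coe_unitOfCoprime]
      rw [ZMod.val_mul, ← pow_eq_pow_mod _ hw, mul_comm, pow_mul, ZMod.val_natCast,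
        ← pow_eq_pow_mod _ hw, pow_add, pow_one, hi2, mul_neg_one, (unit_val_odd hk j).neg_pow]
    have hS0 : ∑ j : (ZMod (2 ^ k))ˣ, w ^ (j : ZMod (2 ^ k)).val = 0 := by
      have := self_eq_neg.1 hS
      exact this
    unfold rootAvg
    rw [hS0]
    simp

theorem even_sum_symm {ι : Type*} [DecidableEq ι] (s : Finset ι) (g : ι → ι → ℤ)
    (hsymm : ∀ a b, g a b = g b a) (hdiag : ∀ a, g a a = 0) :
    Even (∑ a ∈ s, ∑ b ∈ s, g a b) := by
  induction s using Finset.induction_on with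
  | empty => simp
  | insert a s ha ih =>
    rw [Finset.sum_insert ha]
    simp_rw [Finset.sum_insert ha]
    rw [Finset.sum_add_distrib, hdiag]
    have h1 : ∑ x ∈ s, g x a = ∑ y ∈ s, g a y := Finset.sum_congr rfl fun x _ => hsymm x a
    rw [h1]
    have h2 : 0 + ∑ y ∈ s, g a y + (∑ y ∈ s, g a y + ∑ x ∈ s, ∑ y ∈ s, g x y)
        = 2 * ∑ y ∈ s, g a y + ∑ x ∈ s, ∑ y ∈ s, g x y := by ring
    rw [h2]
    exact (even_two_mul _).add ih

theorem numeric_two (K0 Q l s z : ℤ) (hK : 0 ≤ K0) (hQ : 0 ≤ Q) (hs : 0 ≤ s) (hz : Odd z)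
    (h1 : K0 ≤ Q * z) (h2 : K0 * z ≤ Q * l) (hs1 : s * s ≤ l)
    (hs2 : l < (s + 1) * (s + 1)) :
    (Odd s → K0 ≤ s * Q) ∧ (¬ Odd s → (s + 1) * K0 ≤ l * Q) ∧ (l ≤ 3 → K0 ≤ Q) := by
  refine ⟨fun hso => ?_, fun hse => ?_, fun hl => ?_⟩
  · by_cases hzs : z ≤ s
    · calc K0 ≤ Q * z := h1
        _ ≤ Q * s := mul_le_mul_of_nonneg_left hzs hQ
        _ = s * Q := mul_comm _ _
    · have hz2 : s + 2 ≤ z := by
        obtain ⟨a, ha⟩ := hz
        obtain ⟨c, hc⟩ := hso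
        omega
      have h3 : K0 * (s + 2) ≤ (s * Q) * (s + 2) := by
        calc K0 * (s + 2) ≤ K0 * z := mul_le_mul_of_nonneg_left hz2 hK
          _ ≤ Q * l := h2
          _ ≤ Q * (s * (s + 2)) := mul_le_mul_of_nonneg_left (by nlinarith) hQ
          _ = (s * Q) * (s + 2) := by ring
      exact le_of_mul_le_mul_right h3 (by omega)
  · rw [Int.not_odd_iff_even] at hse
    by_cases hzs : z ≤ s
    · have hz2 : z ≤ s - 1 := by
        obtain ⟨a, ha⟩ := hz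
        obtain ⟨c, hc⟩ := hse
        omega
      calc (s + 1) * K0 ≤ (s + 1) * (Q * z) := mul_le_mul_of_nonneg_left h1 (by omega)
        _ ≤ (s + 1) * (Q * (s - 1)) :=
            mul_le_mul_of_nonneg_left (mul_le_mul_of_nonneg_left hz2 hQ) (by omega)
        _ = Q * (s * s - 1) := by ring
        _ ≤ Q * l := mul_le_mul_of_nonneg_left (by omega) hQ
        _ = l * Q := mul_comm _ _
    · calc (s + 1) * K0 ≤ z * K0 := mul_le_mul_of_nonneg_right (by omega) hK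
        _ = K0 * z := mul_comm _ _
        _ ≤ Q * l := h2
        _ = l * Q := mul_comm _ _
  · by_cases hz1 : z ≤ 1
    · calc K0 ≤ Q * z := h1
        _ ≤ Q * 1 := mul_le_mul_of_nonneg_left hz1 hQ
        _ = Q := mul_one _
    · have hz3 : 3 ≤ z := by
        obtain ⟨a, ha⟩ := hz
        omega
      have h3 : K0 * 3 ≤ Q * 3 := by
        calc K0 * 3 ≤ K0 * z := mul_le_mul_of_nonneg_left hz3 hK
          _ ≤ Q * l := h2
          _ ≤ Q * 3 := mul_le_mul_of_nonneg_left hl hQ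
      omega

variable {G : Type*} [Group G] [Fintype G]
variable {M : Ideal AlgInt}

open Classical in
/-- **Sambale's refinement for `p = 2`.** -/
theorem exists_odd_bound (hM : IsPModular 2 M) (x : G) (hx : ∃ k : ℕ, orderOf x = 2 ^ k)
    {B : Set (IrrCharacter G)} {b : Set (IrrCharacter (Cen x))}
    (hind : IsInducedBlock M (Cen x) b B)
    (hne : ((Finset.univ.filter (· ∈ B)).filter
      (fun χ : IrrCharacter G => blockHeight 2 B (χ : G → ℂ) = 0)).Nonempty) :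
    ∃ z : ℤ, Odd z ∧
      ((((Finset.univ.filter (· ∈ B)).filter
        (fun χ : IrrCharacter G => blockHeight 2 B (χ : G → ℂ) = 0)).card : ℕ) : ℤ)
        ≤ ((2 ^ blockDefect 2 b : ℕ) : ℤ) * z ∧
      ((((Finset.univ.filter (· ∈ B)).filter
        (fun χ : IrrCharacter G => blockHeight 2 B (χ : G → ℂ) = 0)).card : ℕ) : ℤ) * z
        ≤ ((2 ^ blockDefect 2 b : ℕ) : ℤ) * ((blockRank 2 b : ℕ) : ℤ) := by
  have : Fact (Nat.Prime 2) := ⟨Nat.prime_two⟩
  obtain ⟨k, hk⟩ := hx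
  obtain ⟨lam, nn, m, t, hl, hm, hβ, ht1, ht2, ht3, ht4⟩ := exists_subsection_avg hM x hk hind
  set S := (Finset.univ.filter (· ∈ B)).filter
      (fun χ : IrrCharacter G => blockHeight 2 B (χ : G → ℂ) = 0) with hS
  have hw : ∀ ζ ξ, (lam ζ * conj (lam ξ)) ^ 2 ^ k = 1 := by
    intro ζ ξ
    rw [mul_pow, ← map_pow, hl, hl, map_one, one_mul]
  choose A hA using fun ζ ξ => rootAvg_two_pow_int (hw ζ ξ)
  have hAsymm : ∀ ζ ξ, A ζ ξ = A ξ ζ := by
    intro ζ ξ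
    have h1 : lam ζ * conj (lam ξ) = conj (lam ξ * conj (lam ζ)) := by
      rw [map_mul, Complex.conj_conj, mul_comm]
    have h2 := hA ζ ξ
    rw [h1, rootAvg_conj, hA, map_intCast] at h2
    exact_mod_cast h2.symm
  have hAdiag : ∀ ζ, A ζ ζ = 1 := by
    intro ζ
    have h1 : ‖lam ζ‖ = 1 :=
      Complex.norm_eq_one_of_pow_eq_one (hl ζ) (pow_ne_zero _ two_ne_zero)
    have h2 : lam ζ * conj (lam ζ) = 1 := by rw [Complex.mul_conj', h1]; simp
    have h3 := hA ζ ζ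
    rw [h2, rootAvg_one] at h3
    exact_mod_cast h3.symm
  obtain ⟨Z, hZdef⟩ : ∃ Z : IrrCharacter G → ℤ, Z = fun χ =>
      ∑ ζ ∈ Finset.univ.filter (· ∈ b), ∑ ξ ∈ Finset.univ.filter (· ∈ b),
        A ζ ξ * ((nn χ ζ : ℤ) * (nn χ ξ : ℤ) * m ζ ξ) := ⟨_, rfl⟩
  have htZ : ∀ χ, t χ = (Z χ : ℝ) := by
    intro χ
    have h1 : (t χ : ℂ) = ((Z χ : ℝ) : ℂ) := by
      rw [ht1, hZdef]
      push_cast
      refine Finset.sum_congr rfl fun ζ _ => Finset.sum_congr rfl fun ξ _ => ?_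
      rw [hA]
    exact_mod_cast h1
  have hZodd : ∀ χ ∈ S, Odd (Z χ) := by
    intro χ hχ
    rw [hS, Finset.mem_filter, Finset.mem_filter] at hχ
    have h1 := hβ χ hχ.1.2 χ hχ.1.2 hχ.2 hχ.2
    rw [memLocalIdeal_intCast_iff hM] at h1
    have h2 : Even (∑ ζ ∈ Finset.univ.filter (· ∈ b), ∑ ξ ∈ Finset.univ.filter (· ∈ b),
        (A ζ ξ - 1) * ((nn χ ζ : ℤ) * (nn χ ξ : ℤ) * m ζ ξ)) := by
      apply even_sum_symm
      · intro ζ ξ
        rw [hAsymm ζ ξ, hm ζ ξ]; ring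
      · intro ζ
        rw [hAdiag]; ring
    have h3 : Z χ = (∑ ζ ∈ Finset.univ.filter (· ∈ b), ∑ ξ ∈ Finset.univ.filter (· ∈ b),
        (A ζ ξ - 1) * ((nn χ ζ : ℤ) * (nn χ ξ : ℤ) * m ζ ξ)) +
        ∑ ζ ∈ Finset.univ.filter (· ∈ b), ∑ ξ ∈ Finset.univ.filter (· ∈ b),
          (nn χ ζ : ℤ) * (nn χ ξ : ℤ) * m ζ ξ := by
      rw [hZdef, ← Finset.sum_add_distrib]
      refine Finset.sum_congr rfl fun ζ _ => ?_
      rw [← Finset.sum_add_distrib]
      refine Finset.sum_congr rfl fun ξ _ => by ring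
    rw [h3]
    apply Even.add_odd h2
    rw [← Int.not_even_iff_odd, even_iff_two_dvd]
    exact_mod_cast h1
  obtain ⟨χ0, hχ0, hmin⟩ := Finset.exists_min_image S Z hne
  refine ⟨Z χ0, hZodd χ0 hχ0, ?_, ?_⟩
  · have hχ0' := hχ0
    rw [hS, Finset.mem_filter, Finset.mem_filter] at hχ0'
    have h1 := ht4 χ0 hχ0'.1.2 hχ0'.2
    rw [htZ] at h1
    exact_mod_cast h1
  · have h1 : (S.card : ℝ) * (Z χ0 : ℝ) ≤ ∑ χ ∈ S, t χ := by
      rw [← nsmul_eq_mul, ← Finset.sum_const]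
      refine Finset.sum_le_sum fun χ hχ => ?_
      rw [htZ]
      exact_mod_cast hmin χ hχ
    have h2 : ∑ χ ∈ S, t χ ≤ ∑ χ ∈ Finset.univ.filter (· ∈ B), t χ :=
      Finset.sum_le_sum_of_subset_of_nonneg (Finset.filter_subset _ _) fun χ _ _ => ht2 χ
    rw [ht3] at h2
    have h3 := h1.trans h2
    exact_mod_cast h3

end Cfsg.Agent.Lib.Helper78
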